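import Cfsg.Agent.H198.IF.Step

/-!
# S5719, orthogonal groups, `q` odd: the two commuting long `SL₂` of a quadruple (helper100)

* `comm` : the two `SL₂` of a quadruple commute;
* `swap_neg` : they have the same central involution `z`;
* `inter` : their intersection is `⟨z⟩`;
* `t2_mul` : products of elements of order 4 are involutions with `-1` space of dimension 2.
-/

set_option autoImplicit false
set_option linter.unusedSectionVars false

namespace Cfsg.Agent.H100.IF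

open QuadraticMap Matrix Module
open Cfsg.Agent.LieClassical.OrthCore Cfsg.Agent.LieClassical.OrthTrans
open Cfsg.Agent.H989.Gs.Gen
open Cfsg.Agent.UGT.U2.FOne.Orth (Four tl)
open Cfsg.Agent.H198.IF

variable {F V : Type*} [Field F] [AddCommGroup V] [Module F V] {Q : QuadraticForm F V} {e₁ f₁ e₂ f₂ : V}
  (h : Four Q e₁ f₁ e₂ f₂)

theorem ap_rhoE (a : SpecialLinearGroup (Fin 2) F) (v : V) : ap (h.rhoE a) v = h.phi a v := rfl

theorem comm (a b : SpecialLinearGroup (Fin 2) F) : h.rhoE a * h.swap.rhoE b = h.swap.rhoE b * h.rhoE a := by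
  apply ext_ap
  intro v
  rw [ap_mul, ap_mul, ap_rhoE, ap_rhoE, ap_rhoE, ap_rhoE]
  have a1 := h.polar_f1 a v
  have a2 := h.polar_f2 a v
  have a3 := h.polar_e1 a v
  have a4 := h.polar_e2 a v
  have b1 := h.swap.polar_f1 b v
  have b2 := h.swap.polar_f2 b v
  have b3 := h.swap.polar_e1 b v
  have b4 := h.swap.polar_e2 b v
  have l1 : h.phi a (h.swap.phi b v) = h.swap.phi b v
    + ((a.1 0 0 - 1) * polar Q f₁ (h.swap.phi b v) + a.1 0 1 * polar Q f₂ (h.swap.phi b v)) • e₁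
    + (a.1 1 0 * polar Q f₁ (h.swap.phi b v) + (a.1 1 1 - 1) * polar Q f₂ (h.swap.phi b v)) • e₂
    + ((a.1 1 1 - 1) * polar Q e₁ (h.swap.phi b v) - a.1 1 0 * polar Q e₂ (h.swap.phi b v)) • f₁
    + (-a.1 0 1 * polar Q e₁ (h.swap.phi b v) + (a.1 0 0 - 1) * polar Q e₂ (h.swap.phi b v)) • f₂ := rfl
  have l2 : h.swap.phi b (h.phi a v) = h.phi a v
    + ((b.1 0 0 - 1) * polar Q f₁ (h.phi a v) + b.1 0 1 * polar Q e₂ (h.phi a v)) • e₁
    + (b.1 1 0 * polar Q f₁ (h.phi a v) + (b.1 1 1 - 1) * polar Q e₂ (h.phi a v)) • f₂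
    + ((b.1 1 1 - 1) * polar Q e₁ (h.phi a v) - b.1 1 0 * polar Q f₂ (h.phi a v)) • f₁
    + (-b.1 0 1 * polar Q e₁ (h.phi a v) + (b.1 0 0 - 1) * polar Q f₂ (h.phi a v)) • e₂ := rfl
  have l3 : h.swap.phi b v = v
    + ((b.1 0 0 - 1) * polar Q f₁ v + b.1 0 1 * polar Q e₂ v) • e₁
    + (b.1 1 0 * polar Q f₁ v + (b.1 1 1 - 1) * polar Q e₂ v) • f₂
    + ((b.1 1 1 - 1) * polar Q e₁ v - b.1 1 0 * polar Q f₂ v) • f₁
    + (-b.1 0 1 * polar Q e₁ v + (b.1 0 0 - 1) * polar Q f₂ v) • e₂ := rfl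
  have l4 : h.phi a v = v
    + ((a.1 0 0 - 1) * polar Q f₁ v + a.1 0 1 * polar Q f₂ v) • e₁
    + (a.1 1 0 * polar Q f₁ v + (a.1 1 1 - 1) * polar Q f₂ v) • e₂
    + ((a.1 1 1 - 1) * polar Q e₁ v - a.1 1 0 * polar Q e₂ v) • f₁
    + (-a.1 0 1 * polar Q e₁ v + (a.1 0 0 - 1) * polar Q e₂ v) • f₂ := rfl
  rw [l1, l2, a1, a2, a3, a4, b1, b2, b3, b4, l3, l4]
  module

theorem swap_neg : h.swap.rhoE (neg₂ F) = h.rhoE (neg₂ F) := by
  have a00 : (neg₂ F).1 0 0 = -1 := by simp [neg₂]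
  have a01 : (neg₂ F).1 0 1 = 0 := by simp [neg₂]
  have a10 : (neg₂ F).1 1 0 = 0 := by simp [neg₂]
  have a11 : (neg₂ F).1 1 1 = -1 := by simp [neg₂]
  apply ext_ap
  intro v
  rw [ap_rhoE, ap_rhoE]
  unfold Four.phi
  rw [a00, a01, a10, a11]
  module

theorem eq_or {a : SpecialLinearGroup (Fin 2) F} (h01 : a.1 0 1 = 0) (h10 : a.1 1 0 = 0) (h00 : a.1 0 0 = a.1 1 1) :
    a = 1 ∨ a = neg₂ F := by
  have hdet := a.2
  rw [Matrix.det_fin_two, h01, h10, ← h00] at hdet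
  have h1 : (a.1 0 0 - 1) * (a.1 0 0 + 1) = 0 := by linear_combination hdet
  rcases mul_eq_zero.1 h1 with h2 | h2
  · left
    have h3 := sub_eq_zero.1 h2
    ext i j
    fin_cases i <;> fin_cases j
    · simpa using h3
    · simpa using h01
    · simpa using h10
    · rw [h00] at h3; simpa using h3
  · right
    have h3 := eq_neg_of_add_eq_zero_left h2
    ext i j
    fin_cases i <;> fin_cases j
    · simpa [neg₂] using h3
    · simpa [neg₂] using h01
    · simpa [neg₂] using h10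
    · rw [h00] at h3; simpa [neg₂] using h3

theorem inter {a b : SpecialLinearGroup (Fin 2) F} (hab : h.rhoE a = h.swap.rhoE b) : a = 1 ∨ a = neg₂ F := by
  obtain ⟨p1, p2, p3, p4, p5, p6, p7, p8, p9, p10, p11, p12, p13, p14, p15, p16⟩ := h.pols
  have key : ∀ v, h.phi a v = h.swap.phi b v := fun v => by
    rw [← ap_rhoE, ← ap_rhoE, hab]
  have k1 : a.1 1 0 = 0 := by
    have h1 := congrArg (polar Q f₂) (key e₁)
    rw [h.polar_f2, h.swap.polar_e2, p6, p12, p1] at h1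
    linear_combination h1
  have k2 : a.1 0 1 = 0 := by
    have h1 := congrArg (polar Q f₁) (key e₂)
    rw [h.polar_f1, h.swap.polar_f1, p13, p8, p3] at h1
    linear_combination h1
  have k3 : a.1 0 0 = b.1 0 0 := by
    have h1 := congrArg (polar Q f₁) (key e₁)
    rw [h.polar_f1, h.swap.polar_f1, p6, p12, p10] at h1
    linear_combination h1
  have k4 : a.1 1 1 = b.1 0 0 := by
    have h1 := congrArg (polar Q f₂) (key e₂)
    rw [h.polar_f2, h.swap.polar_e2, p13, p8, p9] at h1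
    linear_combination h1
  exact eq_or k2 k1 (k3.trans k4.symm)

theorem neg_sq : neg₂ F * neg₂ F = 1 := by
  apply Subtype.ext
  change (-1 : Matrix (Fin 2) (Fin 2) F) * -1 = 1
  rw [neg_mul_neg, one_mul]

theorem neg_ne (h2 : (2 : F) ≠ 0) : neg₂ F ≠ 1 := by
  intro h1
  have h3 := congrArg (fun M : SpecialLinearGroup (Fin 2) F => M.1 0 0) h1
  simp [neg₂] at h3
  apply h2
  linear_combination -h3

theorem sq_one {a b : SpecialLinearGroup (Fin 2) F} (ha : a * a = neg₂ F) (hb : b * b = neg₂ F) :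
    (h.rhoE a * h.swap.rhoE b) * (h.rhoE a * h.swap.rhoE b) = 1 := by
  have h1 : (h.rhoE a * h.swap.rhoE b) * (h.rhoE a * h.swap.rhoE b) =
      (h.rhoE a * h.rhoE a) * (h.swap.rhoE b * h.swap.rhoE b) := by
    rw [mul_assoc, ← mul_assoc (h.swap.rhoE b), ← comm, mul_assoc, mul_assoc]
  rw [h1, ← map_mul, ← map_mul, ha, hb, swap_neg h, ← map_mul, neg_sq, map_one]

theorem ne_one (h2 : (2 : F) ≠ 0) {a b : SpecialLinearGroup (Fin 2) F} (ha : a * a = neg₂ F) :
    h.rhoE a * h.swap.rhoE b ≠ 1 := by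
  intro h1
  have h3 : h.rhoE a = h.swap.rhoE b⁻¹ := by
    rw [map_inv]
    exact eq_inv_of_mul_eq_one_left h1
  rcases inter h h3 with h4 | h4
  · rw [h4, one_mul] at ha
    exact neg_ne h2 ha.symm
  · rw [h4, neg_sq] at ha
    exact neg_ne h2 ha.symm

/-- the fixed vectors of `z` are fixed by both `SL₂` -/
theorem fix_z (h2 : (2 : F) ≠ 0) {v : V} (hv : ap (h.rhoE (neg₂ F)) v = v) (a b : SpecialLinearGroup (Fin 2) F) :
    ap (h.rhoE a) v = v ∧ ap (h.swap.rhoE b) v = v := by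
  obtain ⟨k1, k2, k3, k4⟩ := rho_neg h
  have key : ∀ e, ap (h.rhoE (neg₂ F)) e = -e → polar Q e v = 0 := by
    intro e he
    rw [polar_comm]
    exact orth h2 v (mem_Fix.2 hv) e (mem_Neg.2 he)
  exact ⟨rho_fix h (key _ k1) (key _ k2) (key _ k3) (key _ k4) a,
    rho_fix h.swap (key _ k1) (key _ k2) (key _ k4) (key _ k3) b⟩

theorem z_neg (h2 : (2 : F) ≠ 0) {a b : SpecialLinearGroup (Fin 2) F} {v : V}
    (hv : ap (h.rhoE a * h.swap.rhoE b) v = -v) : ap (h.rhoE (neg₂ F)) v = -v := by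
  have hz : ∀ w, ap (h.rhoE (neg₂ F)) (ap (h.rhoE (neg₂ F)) w) = w := fun w => by
    rw [← ap_mul, ← map_mul, neg_sq, map_one, ap_one]
  have hc : neg₂ F * a = a * neg₂ F := by
    apply Subtype.ext
    change (-1 : Matrix (Fin 2) (Fin 2) F) * a.1 = a.1 * -1
    rw [neg_one_mul, mul_neg_one]
  have hzt : h.rhoE (neg₂ F) * (h.rhoE a * h.swap.rhoE b) = (h.rhoE a * h.swap.rhoE b) * h.rhoE (neg₂ F) := by
    rw [← mul_assoc, ← map_mul, hc, map_mul, mul_assoc, comm, mul_assoc]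
  have h1 : ap (h.rhoE (neg₂ F)) (v + ap (h.rhoE (neg₂ F)) v) = v + ap (h.rhoE (neg₂ F)) v := by
    rw [ap_add, hz, add_comm]
  obtain ⟨h3, h4⟩ := fix_z h h2 h1 a b
  have h5 : ap (h.rhoE a * h.swap.rhoE b) (v + ap (h.rhoE (neg₂ F)) v) = v + ap (h.rhoE (neg₂ F)) v := by
    rw [ap_mul, h4, h3]
  have h6 : ap (h.rhoE a * h.swap.rhoE b) (ap (h.rhoE (neg₂ F)) v) = -ap (h.rhoE (neg₂ F)) v := by
    rw [← ap_mul, ← hzt, ap_mul, hv, ap_neg]
  rw [ap_add, hv, h6] at h5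
  have h7 : (2 : F) • (v + ap (h.rhoE (neg₂ F)) v) = 0 := by
    rw [two_smul]
    nth_rewrite 1 [← h5]
    abel
  exact eq_neg_of_add_eq_zero_right ((smul_eq_zero.1 h7).resolve_left h2)

/-- the `-1` space has dimension at least 2 -/
theorem two_le [FiniteDimensional F V] (h2 : (2 : F) ≠ 0) (hQ : Nondeg Q) {a b : SpecialLinearGroup (Fin 2) F}
    (ha : a * a = neg₂ F) (hb : b * b = neg₂ F) : 2 ≤ finrank F (Cfsg.Agent.H198.IF.Neg (h.rhoE a * h.swap.rhoE b)) := by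
  obtain ⟨t, ht⟩ : ∃ t, t = h.rhoE a * h.swap.rhoE b := ⟨_, rfl⟩
  have htt : t * t = 1 := by rw [ht]; exact sq_one h ha hb
  have hv : ∃ v, ap t v = -v ∧ Q v ≠ 0 := by
    by_contra hcon
    push Not at hcon
    apply ne_one h h2 (b := b) ha
    rw [← ht]
    have hN : ∀ w, ap t w = -w → w = 0 := by
      intro w hw
      apply hQ
      intro y
      obtain ⟨x, z, rfl⟩ := Cfsg.Agent.H112.Row2.OrthExt.exists_dec (isCompl h2 htt) y
      have h3 : ap t (z : V) = -(z : V) := mem_Neg.1 z.2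
      rw [polar_add_right, polar_comm Q w _, orth h2 _ x.2 w (mem_Neg.2 hw), zero_add]
      unfold polar
      rw [hcon w hw, hcon z h3, hcon (w + z) (by rw [ap_add, hw, h3]; abel), sub_zero, sub_zero]
    apply ext_ap
    intro v
    rw [ap_one]
    have h3 : v - ap t v = 0 := by
      apply hN
      rw [ap_sub, ← ap_mul, htt, ap_one, neg_sub]
    exact (sub_eq_zero.1 h3).symm
  obtain ⟨v, hv, hQv⟩ := hv
  have hzv : ap (h.rhoE (neg₂ F)) v = -v := z_neg h h2 (by rw [← ht]; exact hv)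
  have haa : ap (h.rhoE a) (ap (h.rhoE a) v) = -v := by rw [← ap_mul, ← map_mul, ha, hzv]
  have hav : ap t (ap (h.rhoE a) v) = -ap (h.rhoE a) v := by
    have h3 : t * h.rhoE a = h.rhoE a * t := by rw [ht, mul_assoc, ← comm, ← mul_assoc]
    rw [← ap_mul, h3, ap_mul, hv, ap_neg]
  have hp : polar Q v (ap (h.rhoE a) v) = 0 := by
    have h3 := polar_ap (h.rhoE a) v (ap (h.rhoE a) v)
    rw [haa, polar_neg_right, polar_comm Q _ v] at h3
    have h4 : (2 : F) * polar Q v (ap (h.rhoE a) v) = 0 := by linear_combination -h3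
    exact (mul_eq_zero.1 h4).resolve_left h2
  have hvv : polar Q v v ≠ 0 := by
    rw [polar_self, two_nsmul, ← two_mul]
    exact mul_ne_zero h2 hQv
  have h0 : ap (h.rhoE a) v ≠ 0 := by
    intro h3
    apply hQv
    rw [← Q_ap (h.rhoE a) v, h3, QuadraticMap.map_zero]
  rw [← ht]
  have hli : LinearIndependent F ![(⟨v, mem_Neg.2 hv⟩ : Cfsg.Agent.H198.IF.Neg t), ⟨ap (h.rhoE a) v, mem_Neg.2 hav⟩] := by
    rw [LinearIndependent.pair_iff]
    intro x y hxy
    have h3 : x • v + y • ap (h.rhoE a) v = 0 := congrArg Subtype.val hxy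
    have h4 : x = 0 := by
      have h5 := congrArg (polar Q v) h3
      rw [polar_add_right, polar_smul_right, polar_smul_right, hp, smul_zero, add_zero, polar_zero_right, smul_eq_mul] at h5
      exact (mul_eq_zero.1 h5).resolve_right hvv
    refine ⟨h4, ?_⟩
    rw [h4, zero_smul, zero_add] at h3
    exact (smul_eq_zero.1 h3).resolve_right h0
  have := hli.fintype_card_le_finrank
  simpa using this

/-- **products of elements of order 4 of the two `SL₂`** are involutions with `-1` space of dimension 2. -/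
theorem t2_mul [FiniteDimensional F V] (h2 : (2 : F) ≠ 0) (hQ : Nondeg Q) {a b : SpecialLinearGroup (Fin 2) F}
    (ha : a * a = neg₂ F) (hb : b * b = neg₂ F) :
    (h.rhoE a * h.swap.rhoE b) * (h.rhoE a * h.swap.rhoE b) = 1 ∧
      finrank F (Cfsg.Agent.H198.IF.Neg (h.rhoE a * h.swap.rhoE b)) = 2 := by
  refine ⟨sq_one h ha hb, ?_⟩
  have h3 := two_le h h2 hQ ha hb
  have hc : neg₂ F * b = b * neg₂ F := by
    apply Subtype.ext
    change (-1 : Matrix (Fin 2) (Fin 2) F) * b.1 = b.1 * -1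
    rw [neg_one_mul, mul_neg_one]
  have hb' : (b * neg₂ F) * (b * neg₂ F) = neg₂ F := by
    rw [mul_assoc, ← mul_assoc (neg₂ F), hc, mul_assoc b, neg_sq, mul_one, hb]
  have h4 := two_le h h2 hQ ha hb'
  have hz : h.rhoE (neg₂ F) * h.rhoE (neg₂ F) = 1 := by rw [← map_mul, neg_sq, map_one]
  have h5 : Cfsg.Agent.H198.IF.Neg (h.rhoE a * h.swap.rhoE b) ≤ Cfsg.Agent.H198.IF.Neg (h.rhoE (neg₂ F)) := fun v hv =>
    mem_Neg.2 (z_neg h h2 (mem_Neg.1 hv))
  have h6 : Cfsg.Agent.H198.IF.Neg (h.rhoE a * h.swap.rhoE (b * neg₂ F)) ≤ Cfsg.Agent.H198.IF.Neg (h.rhoE (neg₂ F)) := fun v hv =>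
    mem_Neg.2 (z_neg h h2 (mem_Neg.1 hv))
  have h7 : Cfsg.Agent.H198.IF.Neg (h.rhoE a * h.swap.rhoE b) ⊓ Cfsg.Agent.H198.IF.Neg (h.rhoE a * h.swap.rhoE (b * neg₂ F)) = ⊥ := by
    rw [eq_bot_iff]
    rintro v ⟨hv1, hv2⟩
    have k1 := mem_Neg.1 hv1
    have k2 := mem_Neg.1 hv2
    have k3 := mem_Neg.1 (h5 hv1)
    rw [map_mul, swap_neg h, ← mul_assoc, ap_mul, k3, ap_neg, k1, neg_neg] at k2
    rw [Submodule.mem_bot]
    have k4 : (2 : F) • v = 0 := by
      rw [two_smul]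
      nth_rewrite 1 [k2]
      exact neg_add_cancel v
    exact (smul_eq_zero.1 k4).resolve_left h2
  have h8 := Submodule.finrank_sup_add_finrank_inf_eq (Cfsg.Agent.H198.IF.Neg (h.rhoE a * h.swap.rhoE b))
    (Cfsg.Agent.H198.IF.Neg (h.rhoE a * h.swap.rhoE (b * neg₂ F)))
  have h9 := Submodule.finrank_mono (sup_le h5 h6)
  have h10 := finrank_Fix h2 (fund_rho h)
  have h11 := Submodule.finrank_add_eq_of_isCompl (isCompl h2 hz)
  rw [h7, finrank_bot] at h8
  omega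

end Cfsg.Agent.H100.IF
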